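import Mathlib
import Cfsg.Prelude.Def_OddOrderLocal
import Cfsg.Agent.Lib.Helper51.TIH.Defs

/-!
# Project TIQ (S4151): interface

`G` π-separable, `H` a non-normal TI subgroup that is a Hall subgroup of `N = N_G(H)`, Sylow
2-subgroups of `H` abelian, `Q` a complement of `H` in `N`: then `D = C_H(Q)` is a Hall subgroup
of `G` with a normal complement.  Sibling of helper51's project TIH (S4118), whose packages
`PkgO, PkgHall, PkgF, PkgON, PkgAct` are reused.

Notation in the package statements: `N = Subgroup.normalizer (H : Set G)`,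
`D = H ⊓ Subgroup.centralizer (Q : Set G)`, `O` = the largest normal subgroup of order coprime to
`|H|`.  All packages are closed `Prop`s, universe-polymorphic in `G : Type u`.
-/

set_option autoImplicit false

namespace Cfsg.Agent.Lib.Helper4.TIQ

open Cfsg.Agent.Lib.Helper51.TIH

universe u

/-- [RANK] `H` has no subgroup `Z_p × Z_p` (coprime generation: `O` would centralize `H`). -/
def PkgRank : Prop :=
  ∀ (G : Type u) [Group G] [Finite G] (H O : Subgroup G), O.Normal →
    (Nat.card O).Coprime (Nat.card H) → IsSemiFpf H O →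
    ∀ (p : ℕ) [Fact p.Prime] (x z : G), x ∈ H → z ∈ H → x * z = z * x → x ^ p = 1 → z ^ p = 1 →
      (∀ i j : ℕ, x ^ i * z ^ j = 1 → p ∣ i ∧ p ∣ j) → False

/-- [Z] a finite group without `Z_p × Z_p` and with abelian Sylow 2-subgroups is a Z-group. -/
def PkgZ : Prop :=
  ∀ (H : Type u) [Group H] [Finite H],
    (∀ (p : ℕ) [Fact p.Prime] (x z : H), x * z = z * x → x ^ p = 1 → z ^ p = 1 →
      (∀ i j : ℕ, x ^ i * z ^ j = 1 → p ∣ i ∧ p ∣ j) → False) →
    (∀ P : Sylow 2 H, IsMulCommutative (P : Subgroup H)) → IsZGroup H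

/-- [PROD] order of a semidirect product inside `G`. -/
def PkgProd : Prop :=
  ∀ (G : Type u) [Group G] [Finite G] (A B : Subgroup G), A ≤ Subgroup.normalizer (B : Set G) →
    A ⊓ B = ⊥ → Nat.card ↥(A ⊔ B) = Nat.card A * Nat.card B

/-- [SUPINF] the product formula for a normal subgroup. -/
def PkgSupInf : Prop :=
  ∀ (G : Type u) [Group G] [Finite G] (O L : Subgroup G), O.Normal →
    Nat.card ↥(O ⊔ L) * Nat.card ↥(O ⊓ L) = Nat.card O * Nat.card L

/-- [QC] `|Q| = |N : H|` is coprime to `|H|`. -/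
def PkgQC : Prop :=
  ∀ (G : Type u) [Group G] [Finite G] (H Q : Subgroup G), Q ≤ Subgroup.normalizer (H : Set G) →
    Q ⊓ H = ⊥ → Q ⊔ H = Subgroup.normalizer (H : Set G) →
    (Nat.card H).Coprime (H.subgroupOf (Subgroup.normalizer (H : Set G))).index →
    (Nat.card Q).Coprime (Nat.card H)

/-- [CYC] a coprime group of automorphisms of a cyclic `p`-group that fixes a non-identity element
is trivial. -/
def PkgCyc : Prop :=
  ∀ (G : Type u) [Group G] [Finite G] (P A : Subgroup G) (p : ℕ) [Fact p.Prime], IsPGroup p P →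
    IsCyclic P → A ≤ Subgroup.normalizer (P : Set G) → (Nat.card A).Coprime p →
    (∃ x ∈ P, x ≠ 1 ∧ ∀ a ∈ A, a * x = x * a) → A ≤ Subgroup.centralizer (P : Set G)

/-- [AB] coprime action with `[K, A] = K`: the fixed points lie in the derived group. -/
def PkgAb : Prop :=
  ∀ (G : Type u) [Group G] [Finite G] (K A : Subgroup G), A ≤ Subgroup.normalizer (K : Set G) →
    (Nat.card A).Coprime (Nat.card K) → ⁅K, A⁆ = K →
    K ⊓ Subgroup.centralizer (A : Set G) ≤ ⁅K, K⁆

/-- [ZSYL] in a Z-group the Sylow `p`-subgroups for `p ∣ |K'|` are normal and lie in `K'`. -/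
def PkgZSyl : Prop :=
  ∀ (K : Type u) [Group K] [Finite K] [IsZGroup K] (p : ℕ) [Fact p.Prime] (P : Sylow p K),
    p ∣ Nat.card (commutator K) → (P : Subgroup K) ≤ commutator K ∧ (P : Subgroup K).Normal

/-- [TRF] a central Sylow subgroup contained in the derived group is trivial (transfer). -/
def PkgTrf : Prop :=
  ∀ (K : Type u) [Group K] [Finite K] (p : ℕ) [Fact p.Prime] (P : Sylow p K),
    (P : Subgroup K) ≤ Subgroup.center K → (P : Subgroup K) ≤ commutator K →
    (P : Subgroup K) = ⊥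

/-- [COPA] coprime action on a Z-group: the fixed points form a Hall subgroup. -/
def PkgCopA : Prop :=
  ∀ (G : Type u) [Group G] [Finite G] (H Q : Subgroup G), Q ≤ Subgroup.normalizer (H : Set G) →
    (Nat.card Q).Coprime (Nat.card H) → IsZGroup H →
    (Nat.card ↥(H ⊓ Subgroup.centralizer (Q : Set G))).Coprime
      ((H ⊓ Subgroup.centralizer (Q : Set G)).relIndex H)

/-- [COPB] coprime action on a Z-group: the fixed points meet `[H, Q]` trivially. -/
def PkgCopB : Prop :=
  ∀ (G : Type u) [Group G] [Finite G] (H Q : Subgroup G), Q ≤ Subgroup.normalizer (H : Set G) →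
    (Nat.card Q).Coprime (Nat.card H) → IsZGroup H →
    (H ⊓ Subgroup.centralizer (Q : Set G)) ⊓ ⁅H, Q⁆ = ⊥

/-- [CLEQ] `O ∩ N ≤ Q`. -/
def PkgCLeQ : Prop :=
  ∀ (G : Type u) [Group G] [Finite G] (H Q O : Subgroup G), O.Normal →
    (Nat.card O).Coprime (Nat.card H) → Q ≤ Subgroup.normalizer (H : Set G) →
    Q ⊔ H = Subgroup.normalizer (H : Set G) → O ⊓ Subgroup.normalizer (H : Set G) ≤ Q

/-- [NRMN] `O [H,Q] Q` is normal in `G`. -/
def PkgNormN : Prop :=
  ∀ (G : Type u) [Group G] [Finite G] (H Q O : Subgroup G), O.Normal →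
    O ⊔ Subgroup.normalizer (H : Set G) = ⊤ → Q ≤ Subgroup.normalizer (H : Set G) →
    Q ⊔ H = Subgroup.normalizer (H : Set G) → (O ⊔ (⁅H, Q⁆ ⊔ Q)).Normal

/-- [KFACTS] `[H,Q] ≤ H` and `H`, `Q` normalize `[H,Q]`. -/
def PkgKFacts : Prop :=
  ∀ (G : Type u) [Group G] (H Q : Subgroup G), Q ≤ Subgroup.normalizer (H : Set G) →
    ⁅H, Q⁆ ≤ H ∧ H ≤ Subgroup.normalizer ((⁅H, Q⁆ : Subgroup G) : Set G) ∧
      Q ≤ Subgroup.normalizer ((⁅H, Q⁆ : Subgroup G) : Set G)

end Cfsg.Agent.Lib.Helper4.TIQ
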