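import Cfsg.Agent.Lib.Helper4.TIQ.Defs
import Cfsg.Agent.Lib.Helper1.Commutator

/-!
# Project TIQ (S4151): the assembly of the statement from the packages
-/

set_option autoImplicit false

namespace Cfsg.Agent.Lib.Helper4.TIQ

open Cfsg.Agent.Lib.Helper51.TIH

universe u

/-- S4151 from the packages. -/
theorem s4151_of (hO : PkgO.{u}) (hHall : PkgHall.{u}) (hF : PkgF.{u}) (hON : PkgON.{u})
    (hAct : PkgAct.{u}) (hRank : PkgRank.{u}) (hZ : PkgZ.{u}) (hProd : PkgProd.{u})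
    (hSupInf : PkgSupInf.{u}) (hQC : PkgQC.{u}) (hCopA : PkgCopA.{u}) (hCopB : PkgCopB.{u})
    (hCLeQ : PkgCLeQ.{u}) (hNormN : PkgNormN.{u}) (hKFacts : PkgKFacts.{u})
    {G : Type u} [Group G] [Finite G] (H : Subgroup G)
    (hTI : Cfsg.IsTISubset (H : Set G)) (hnn : ¬ H.Normal)
    (hHall' : (Nat.card H).Coprime (H.subgroupOf (Subgroup.normalizer (H : Set G))).index)
    (hsep : ∃ (n : ℕ) (M : Fin (n + 1) → Subgroup G), M 0 = ⊥ ∧ M (Fin.last n) = ⊤ ∧ Monotone M ∧ (∀ i, (M i).Normal) ∧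
      ∀ i : Fin n, (∀ q : ℕ, q.Prime → q ∣ (M i.castSucc).relIndex (M i.succ) → q ∣ Nat.card H) ∨
        ((M i.castSucc).relIndex (M i.succ)).Coprime (Nat.card H))
    (h2 : ∀ P : Sylow 2 H, IsMulCommutative (P : Subgroup H))
    (Q : Subgroup G) (hQ : Q ≤ Subgroup.normalizer (H : Set G)) (hQH : Q ⊓ H = ⊥) (hQH' : Q ⊔ H = Subgroup.normalizer (H : Set G)) :
    (Nat.card ↥(H ⊓ Subgroup.centralizer (Q : Set G))).Coprime (H ⊓ Subgroup.centralizer (Q : Set G)).index ∧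
    ∃ N : Subgroup G, N.Normal ∧ N.IsComplement' (H ⊓ Subgroup.centralizer (Q : Set G)) := by
  obtain ⟨O, hOdef⟩ : ∃ O : Subgroup G,
      O = sSup {K : Subgroup G | K.Normal ∧ (Nat.card K).Coprime (Nat.card H)} := ⟨_, rfl⟩
  obtain ⟨hOn, hOc, hOmax⟩ := hO G H O hOdef
  have hHne : H ≠ ⊥ := by
    rintro rfl
    exact hnn inferInstance
  have hH : (Nat.card H).Coprime H.index := hHall G H hTI hHall'
  have hFex : HasF H O := hF G H O ⟨hOn, hOc, hOmax⟩ hsep hHne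
  have hON' : O ⊔ Subgroup.normalizer (H : Set G) = ⊤ := hON G H O hTI hH hOn hOc hFex
  have hact : IsSemiFpf H O := hAct G H O hTI hnn hOn hOc hON'
  have hrank := hRank G H O hOn hOc hact
  have hZg : IsZGroup ↥H := by
    refine hZ ↥H ?_ h2
    intro p _ x z hxz hx hz hind
    refine hrank p (x : G) (z : G) x.2 z.2 ?_ ?_ ?_ ?_
    · exact_mod_cast congrArg Subtype.val hxz
    · exact_mod_cast congrArg Subtype.val hx
    · exact_mod_cast congrArg Subtype.val hz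
    · intro i j hij
      refine hind i j ?_
      apply Subtype.ext
      simpa using hij
  have hQc : (Nat.card Q).Coprime (Nat.card H) := hQC G H Q hQ hQH hQH' hHall'
  have hA := hCopA G H Q hQ hQc hZg
  have hB := hCopB G H Q hQ hQc hZg
  obtain ⟨hKH, hHK, hQK⟩ := hKFacts G H Q hQ
  have hsup : ⁅H, Q⁆ ⊔ (H ⊓ Subgroup.centralizer (Q : Set G)) = H :=
    Cfsg.Agent.Lib.Helper1.coprime_commutator_sup_centralizer Q H hQ hQc (Or.inr inferInstance)
  have hHN : H ≤ Subgroup.normalizer (H : Set G) := Subgroup.le_normalizer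
  have hDH : H ⊓ Subgroup.centralizer (Q : Set G) ≤ H := inf_le_left
  -- first conclusion
  have h1 : (Nat.card ↥(H ⊓ Subgroup.centralizer (Q : Set G))).Coprime
      (H ⊓ Subgroup.centralizer (Q : Set G)).index := by
    rw [← Subgroup.relIndex_mul_index hDH]
    exact Nat.Coprime.mul_right hA (hH.coprime_dvd_left (Subgroup.card_dvd_of_le hDH))
  refine ⟨h1, O ⊔ (⁅H, Q⁆ ⊔ Q), hNormN G H Q O hOn hON' hQ hQH', ?_⟩
  -- card arithmetic
  have hLN : ⁅H, Q⁆ ⊔ Q ≤ Subgroup.normalizer (H : Set G) := sup_le (hKH.trans hHN) hQ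
  have hinf : O ⊓ (⁅H, Q⁆ ⊔ Q) = O ⊓ Subgroup.normalizer (H : Set G) := by
    apply le_antisymm
    · exact inf_le_inf_left O hLN
    · exact le_inf inf_le_left ((hCLeQ G H Q O hOn hOc hQ hQH').trans le_sup_right)
  have ea : Nat.card G * Nat.card ↥(O ⊓ Subgroup.normalizer (H : Set G)) =
      Nat.card O * Nat.card ↥(Subgroup.normalizer (H : Set G)) := by
    have := hSupInf G O (Subgroup.normalizer (H : Set G)) hOn
    rwa [hON', Subgroup.card_top] at this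
  have eb : Nat.card ↥(O ⊔ (⁅H, Q⁆ ⊔ Q)) * Nat.card ↥(O ⊓ Subgroup.normalizer (H : Set G)) =
      Nat.card O * Nat.card ↥(⁅H, Q⁆ ⊔ Q) := by
    have := hSupInf G O (⁅H, Q⁆ ⊔ Q) hOn
    rwa [hinf] at this
  have ed : Nat.card ↥(Subgroup.normalizer (H : Set G)) = Nat.card Q * Nat.card H := by
    have := hProd G Q H hQ hQH
    rwa [hQH'] at this
  have ee : Nat.card ↥(⁅H, Q⁆ ⊔ Q) = Nat.card Q * Nat.card ↥(⁅H, Q⁆) := by
    have := hProd G Q ⁅H, Q⁆ hQK
      (le_bot_iff.mp (hQH ▸ inf_le_inf_left Q hKH))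
    rwa [sup_comm] at this
  have ef : Nat.card H = Nat.card ↥(H ⊓ Subgroup.centralizer (Q : Set G)) * Nat.card ↥(⁅H, Q⁆) := by
    have := hProd G (H ⊓ Subgroup.centralizer (Q : Set G)) ⁅H, Q⁆ (hDH.trans hHK) hB
    rwa [sup_comm, hsup] at this
  have hpos : 0 < Nat.card ↥(O ⊓ Subgroup.normalizer (H : Set G)) := Nat.card_pos
  have hcard : Nat.card ↥(O ⊔ (⁅H, Q⁆ ⊔ Q)) * Nat.card ↥(H ⊓ Subgroup.centralizer (Q : Set G)) =
      Nat.card G := by
    apply Nat.eq_of_mul_eq_mul_right hpos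
    rw [ea, ed, ef, mul_right_comm, eb, ee]
    ring
  refine Subgroup.isComplement'_of_coprime hcard ?_
  have hidx : (H ⊓ Subgroup.centralizer (Q : Set G)).index = Nat.card ↥(O ⊔ (⁅H, Q⁆ ⊔ Q)) := by
    have h3 := Subgroup.card_mul_index (H ⊓ Subgroup.centralizer (Q : Set G))
    have hpos' : 0 < Nat.card ↥(H ⊓ Subgroup.centralizer (Q : Set G)) := Nat.card_pos
    apply Nat.eq_of_mul_eq_mul_left hpos'
    rw [h3, ← hcard, mul_comm]
  rw [← hidx]
  exact h1.symm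

end Cfsg.Agent.Lib.Helper4.TIQ
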