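import Cfsg.Agent.Lib.Helper4.TIQ.Defs
import Cfsg.Agent.Lib.Helper32.ZCoprime

/-!
# Project TIQ (S4151): packages [COPA] and [COPB], unconditionally

Both follow from helper32's `zgroup_coprime` (the internal form of S4117).
-/

set_option autoImplicit false

namespace Cfsg.Agent.Lib.Helper4.TIQ

universe u

open scoped Pointwise

/-- [COPB], unconditional. -/
theorem pkgCopB : PkgCopB.{u} := by
  intro G _ _ H Q hQ hcop hZ
  have := hZ
  obtain ⟨-, -, -, hinf, -, -⟩ := Cfsg.Agent.Lib.Helper32.zgroup_coprime Q H hQ hcop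
  rw [eq_bot_iff, ← hinf]
  exact le_inf inf_le_right (inf_le_left.trans inf_le_right)

/-- [COPA], unconditional. -/
theorem pkgCopA : PkgCopA.{u} := by
  intro G _ _ H Q hQ hcop hZ
  have := hZ
  obtain ⟨hKH, hHK, -, hinf, hsup, hc⟩ := Cfsg.Agent.Lib.Helper32.zgroup_coprime Q H hQ hcop
  have hDH : H ⊓ Subgroup.centralizer (Q : Set G) ≤ H := inf_le_left
  have hdisj : (H ⊓ Subgroup.centralizer (Q : Set G)) ⊓ ⁅H, Q⁆ = ⊥ := by
    rw [eq_bot_iff, ← hinf]
    exact le_inf inf_le_right (inf_le_left.trans inf_le_right)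
  -- `|H| = |D| |K|`
  have h1 : Nat.card ↥(H ⊓ Subgroup.centralizer (Q : Set G)) *
      (H ⊓ Subgroup.centralizer (Q : Set G)).relIndex H = Nat.card H := by
    have := Subgroup.relIndex_mul_relIndex (⊥ : Subgroup G) _ H bot_le hDH
    rwa [Subgroup.relIndex_bot_left, Subgroup.relIndex_bot_left] at this
  have h2 : Nat.card H = Nat.card ↥(H ⊓ Subgroup.centralizer (Q : Set G)) * Nat.card ↥(⁅H, Q⁆) := by
    have h3 : Nat.card ↥((H ⊓ Subgroup.centralizer (Q : Set G)) ⊔ ⁅H, Q⁆) *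
        Nat.card ↥((H ⊓ Subgroup.centralizer (Q : Set G)) ⊓ ⁅H, Q⁆) =
        Nat.card ↥(H ⊓ Subgroup.centralizer (Q : Set G)) * Nat.card ↥(⁅H, Q⁆) := by
      have hn : (H ⊓ Subgroup.centralizer (Q : Set G)) ≤
          Subgroup.normalizer ((⁅H, Q⁆ : Subgroup G) : Set G) := hDH.trans hHK
      rw [hdisj, Subgroup.card_bot, mul_one, ← Nat.card_prod]
      -- bijection `D × K → D ⊔ K`
      symm
      refine Nat.card_congr (Equiv.ofBijective
        (fun x : ↥(H ⊓ Subgroup.centralizer (Q : Set G)) × ↥(⁅H, Q⁆) =>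
          (⟨(x.1 : G) * (x.2 : G), Subgroup.mul_mem _ (Subgroup.mem_sup_left x.1.2)
            (Subgroup.mem_sup_right x.2.2)⟩ : ↥((H ⊓ Subgroup.centralizer (Q : Set G)) ⊔ ⁅H, Q⁆)))
        ⟨?_, ?_⟩)
      · rintro ⟨⟨a, ha⟩, ⟨b, hb⟩⟩ ⟨⟨a', ha'⟩, ⟨b', hb'⟩⟩ hab
        have hab' : a * b = a' * b' := congrArg Subtype.val hab
        have h4 : a'⁻¹ * a = b' * b⁻¹ := by
          rw [inv_mul_eq_iff_eq_mul, ← mul_assoc, ← hab', mul_inv_cancel_right]
        have h5 : a'⁻¹ * a ∈ (H ⊓ Subgroup.centralizer (Q : Set G)) ⊓ ⁅H, Q⁆ :=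
          ⟨Subgroup.mul_mem _ (Subgroup.inv_mem _ ha') ha,
            h4 ▸ Subgroup.mul_mem _ hb' (Subgroup.inv_mem _ hb)⟩
        rw [hdisj, Subgroup.mem_bot] at h5
        have h6 : a = a' := by
          rw [inv_mul_eq_one] at h5; exact h5.symm
        subst h6
        have h7 : b = b' := mul_left_cancel hab'
        subst h7
        rfl
      · rintro ⟨g, hg⟩
        have hg' : g ∈ ⁅H, Q⁆ ⊔ (H ⊓ Subgroup.centralizer (Q : Set G)) := by
          rw [sup_comm]; exact hg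
        -- `g = k * d`, then `g = d * (d⁻¹ k d)`
        obtain ⟨k, hk, d, hd, rfl⟩ : ∃ k ∈ ⁅H, Q⁆, ∃ d ∈ H ⊓ Subgroup.centralizer (Q : Set G),
            k * d = g := by
          have hset : ((⁅H, Q⁆ ⊔ (H ⊓ Subgroup.centralizer (Q : Set G)) : Subgroup G) : Set G) =
              ((⁅H, Q⁆ : Subgroup G) : Set G) * ((H ⊓ Subgroup.centralizer (Q : Set G) : Subgroup G) : Set G) :=
            Subgroup.coe_mul_of_right_le_normalizer_left _ _ hn
          have : g ∈ ((⁅H, Q⁆ ⊔ (H ⊓ Subgroup.centralizer (Q : Set G)) : Subgroup G) : Set G) := hg'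
          rw [hset] at this
          obtain ⟨k, hk, d, hd, hkd⟩ := Set.mem_mul.mp this
          exact ⟨k, hk, d, hd, hkd⟩
        refine ⟨⟨⟨d, hd⟩, ⟨d⁻¹ * k * d, ?_⟩⟩, ?_⟩
        · have := (Subgroup.mem_normalizer_iff.mp (hn (Subgroup.inv_mem _ hd)) k).mp hk
          simpa using this
        · apply Subtype.ext
          simp [mul_assoc]
    rw [sup_comm, hsup, hdisj, Subgroup.card_bot, mul_one] at h3
    exact h3
  have h8 : (H ⊓ Subgroup.centralizer (Q : Set G)).relIndex H = Nat.card ↥(⁅H, Q⁆) := by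
    have hpos : 0 < Nat.card ↥(H ⊓ Subgroup.centralizer (Q : Set G)) := Nat.card_pos
    apply Nat.eq_of_mul_eq_mul_left hpos
    rw [h1, h2]
  rw [h8]
  exact hc.symm

end Cfsg.Agent.Lib.Helper4.TIQ
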